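import Mathlib
import Cfsg.Agent.Lib.PGroup.MetaApps
import Cfsg.Agent.Lib.PGroup.MetaOmega
import Cfsg.Agent.Lib.PGroup.Basic
import Cfsg.Agent.Lib.Coprime.AutAction

/-!
# Coprime actions on metacyclic `p`-groups

For `p` odd, a metacyclic `p`-group `G` with a coprime action such that `[G, Γ] = G` is abelian
(the first step of Lemma 4.1 of Bender-Glauberman).
-/

set_option autoImplicit false

namespace Cfsg.Agent.Lib.OddOrder.MetaAct

open Cfsg.Agent.Lib.PGroup.MetaArith Cfsg.Agent.Lib.PGroup.MetaForm Cfsg.Agent.Lib.PGroup.MetaCore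
open Cfsg.Agent.Lib.Coprime.AutAction
open Subgroup
open scoped commutatorElement

/-- Determinant on `F²`. -/
def dd {F : Type*} [CommRing F] (u v : F × F) : F := u.1 * v.2 - u.2 * v.1

section det
variable {F : Type*} [Field F]

theorem dd_cramer (u v w : F × F) : dd u v • w = dd w v • u + dd u w • v := by
  ext <;> simp [dd] <;> ring

theorem dd_add_left (u v w : F × F) : dd (u + v) w = dd u w + dd v w := by simp [dd]; ring
theorem dd_add_right (u v w : F × F) : dd u (v + w) = dd u v + dd u w := by simp [dd]; ring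
theorem dd_smul_left (a : F) (u v : F × F) : dd (a • u) v = a * dd u v := by simp [dd]; ring
theorem dd_self (u : F × F) : dd u u = 0 := by simp [dd]; ring
theorem dd_comm (u v : F × F) : dd u v = - dd v u := by simp [dd]; ring
theorem dd_sub_right (u v w : F × F) : dd u (v - w) = dd u v - dd u w := by simp [dd]; ring

/-- A nonzero vector has a partner of nonzero determinant. -/
theorem exists_dd_ne_zero {v : F × F} (hv : v ≠ 0) : ∃ e : F × F, dd v e ≠ 0 := by
  by_cases h1 : v.1 = 0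
  · have h2 : v.2 ≠ 0 := fun h => hv (Prod.ext h1 h)
    refine ⟨(1, 0), ?_⟩
    simpa [dd] using h2
  · refine ⟨(0, 1), ?_⟩
    simpa [dd] using h1

end det

/-- An additive invariant function vanishes when `[G, Γ] = G`. -/
theorem additive_eq_zero {G Γ M : Type*} [Group G] [Group Γ] [AddCommGroup M] (ρ : Γ →* MulAut G)
    (hgen : commClosure ρ = ⊤) (f : G → M) (hf : ∀ x y, f (x * y) = f x + f y)
    (hinv : ∀ b x, f (ρ b x) = f x) (g : G) : f g = 0 := by
  have h1 : f 1 = 0 := by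
    have := hf 1 1
    simpa using this
  have hi : ∀ x, f x⁻¹ = - f x := fun x => by
    have := hf x⁻¹ x
    rw [inv_mul_cancel, h1] at this
    exact eq_neg_of_add_eq_zero_left this.symm
  have hg : g ∈ commClosure ρ := by rw [hgen]; trivial
  rw [commClosure] at hg
  induction hg using Subgroup.closure_induction with
  | mem x hx =>
    obtain ⟨g, b, rfl⟩ := hx
    rw [hf, hi, hinv]; simp
  | one => exact h1
  | mul x y _ _ hx hy => rw [hf, hx, hy, add_zero]
  | inv x _ hx => rw [hi, hx, neg_zero]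

section reduce

variable {G : Type*} [Group G] {p n : ℕ} [hp : Fact p.Prime] (D : Coord G p n) (hn : n ≠ 0)

/-- Reduction modulo `p`. -/
def rd (hn : n ≠ 0) : R p n →+* ZMod p := ZMod.castHom (dvd_pow_self p hn) (ZMod p)

theorem rd_p : rd hn (p : R p n) = 0 := by
  simp [rd]

/-- `φ` mod `p`. -/
def psi (g : G) : ZMod p × ZMod p := (rd hn (D.φ g).1, rd hn (D.φ g).2)

theorem rd_χ (x : G) : rd hn (D.χ x) = 1 := by
  obtain ⟨d, hd⟩ := D.χ_form x
  rw [hd, map_add, map_one, map_mul, rd_p, zero_mul, add_zero]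

theorem psi_mul (x y : G) : psi D hn (x * y) = psi D hn x + psi D hn y := by
  ext <;> simp [psi, D.φ_mul, rd_χ]

theorem psi_one : psi D hn 1 = 0 := by
  have := psi_mul D hn 1 1
  simpa using this

theorem psi_inv (x : G) : psi D hn x⁻¹ = - psi D hn x := by
  have := psi_mul D hn x⁻¹ x
  rw [inv_mul_cancel, psi_one] at this
  exact eq_neg_of_add_eq_zero_left this.symm

theorem psi_pow (x : G) (k : ℕ) : psi D hn (x ^ k) = (k : ZMod p) • psi D hn x := by
  induction k with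
  | zero => simp [psi_one]
  | succ k ih => rw [pow_succ, psi_mul, ih]; push_cast; rw [add_smul, one_smul]

theorem psi_a : psi D hn D.a = (1, 0) := by simp [psi, D.φ_a]
theorem psi_b : psi D hn D.b = (0, 1) := by simp [psi, D.φ_b]

theorem rd_dt (x y : G) : rd hn (dt (D.φ x) (D.φ y)) = dd (psi D hn x) (psi D hn y) := by
  simp [dt, dd, psi]

theorem c_mem_commutator : D.c ∈ commutator G := by
  rw [D.derived]; exact mem_zpowers _

include hn in
theorem c_pow_pred_ne_one : D.c ^ p ^ (n - 1) ≠ 1 := by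
  apply pow_ne_one_of_lt_orderOf
  · exact pow_ne_zero _ hp.out.ne_zero
  · rw [D.order_c]
    have hn' : 0 < n := Nat.pos_of_ne_zero hn
    exact Nat.pow_lt_pow_right hp.out.one_lt (by omega)

include hn in
theorem exists_k [Finite G] (σ : MulAut G) : ∃ k : ℕ, σ D.c = D.c ^ k ∧ ¬ p ∣ k := by
  have h1 : σ D.c ∈ commutator G :=
    (Subgroup.characteristic_iff_le_comap.mp inferInstance σ) (c_mem_commutator D)
  rw [D.derived, ← mem_powers_iff_mem_zpowers] at h1
  obtain ⟨k, hk⟩ := h1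
  refine ⟨k, hk.symm, ?_⟩
  rintro ⟨e, rfl⟩
  apply c_pow_pred_ne_one D hn
  have h2 : σ (D.c ^ p ^ (n - 1)) = 1 := by
    rw [map_pow, ← hk, ← pow_mul]
    have h3 : p * e * p ^ (n - 1) = p ^ n * e := by
      obtain ⟨m, rfl⟩ := Nat.exists_eq_succ_of_ne_zero hn
      simp only [Nat.succ_eq_add_one, Nat.add_sub_cancel, pow_succ]
      ring
    rw [h3, pow_mul, ← D.order_c, pow_orderOf_eq_one, one_pow]
  exact σ.injective (by rw [h2, map_one])

theorem dt_aut (σ : MulAut G) {k : ℕ} (hk : σ D.c = D.c ^ k) (x y : G) :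
    dt (D.φ (σ x)) (D.φ (σ y)) = (k : R p n) * dt (D.φ x) (D.φ y) := by
  have hne : NeZero (p ^ n) := ⟨pow_ne_zero _ hp.out.ne_zero⟩
  have h1 : D.c ^ (dt (D.φ (σ x)) (D.φ (σ y))).val = D.c ^ (k * (dt (D.φ x) (D.φ y)).val) := by
    rw [← D.comm, pow_mul, ← hk, ← map_pow, ← D.comm, map_commutatorElement]
  rw [pow_eq_pow_iff_modEq, D.order_c] at h1
  have h2 := (ZMod.natCast_eq_natCast_iff _ _ _).mpr h1
  simpa using h2

theorem dd_aut (σ : MulAut G) {k : ℕ} (hk : σ D.c = D.c ^ k) (x y : G) :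
    dd (psi D hn (σ x)) (psi D hn (σ y)) = (k : ZMod p) * dd (psi D hn x) (psi D hn y) := by
  rw [← rd_dt, ← rd_dt, dt_aut D σ hk, map_mul, map_natCast]

include D in
theorem pow_add_hom (hodd : Odd p) (k : ℕ) (x y : G) :
    (x * y) ^ p ^ (n + k) = x ^ p ^ (n + k) * y ^ p ^ (n + k) := by
  have hc : Commute (x ^ p ^ n) (y ^ p ^ n) :=
    (Subgroup.mem_center_iff.mp (D.pow_p_n_mem_center hodd y) _)
  rw [pow_add, pow_mul, pow_mul, pow_mul, D.pow_hom, hc.mul_pow]

include D in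
theorem pow_add_mem_center (hodd : Odd p) (k : ℕ) (x : G) : x ^ p ^ (n + k) ∈ center G := by
  rw [pow_add, pow_mul]
  exact pow_mem (D.pow_p_n_mem_center hodd x) _

/-- The subgroup of elements whose `p^(n+j)`-th power is a `p^(n+j+1)`-th power. -/
def powK (hodd : Odd p) (j : ℕ) : Subgroup G where
  carrier := {g | ∃ h : G, g ^ p ^ (n + j) = h ^ p ^ (n + (j + 1))}
  one_mem' := ⟨1, by simp⟩
  mul_mem' := by
    rintro x y ⟨h, hh⟩ ⟨h', hh'⟩
    exact ⟨h * h', by rw [pow_add_hom D hodd, pow_add_hom D hodd, hh, hh']⟩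
  inv_mem' := by
    rintro x ⟨h, hh⟩
    exact ⟨h⁻¹, by rw [inv_pow, inv_pow, hh]⟩

theorem mem_powK (hodd : Odd p) (j : ℕ) {g : G} :
    g ∈ powK D hodd j ↔ ∃ h : G, g ^ p ^ (n + j) = h ^ p ^ (n + (j + 1)) := Iff.rfl

include D in
theorem comm_pow_eq_one (hodd : Odd p) (j : ℕ) (x y : G) : ⁅x, y⁆ ^ p ^ (n + j) = 1 := by
  have h1 : ⁅x, y⁆ ^ p ^ n = 1 := by
    have hc1 : D.c ^ p ^ n = 1 := orderOf_dvd_iff_pow_eq_one.mp (by rw [D.order_c])
    rw [D.comm, ← pow_mul, mul_comm, pow_mul, hc1, one_pow]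
  rw [pow_add, pow_mul, h1, one_pow]

variable [Finite G]

theorem frattini_le_powK (hodd : Odd p) (hG : IsPGroup p G) (j : ℕ) :
    frattini G ≤ powK D hodd j := by
  rw [Cfsg.Agent.Lib.PGroup.Basic.frattini_le_iff hG]
  refine ⟨fun x => ⟨x, ?_⟩, fun x y => ⟨1, ?_⟩⟩
  · rw [← pow_mul, ← pow_succ']
    rfl
  · rw [comm_pow_eq_one D hodd, one_pow]

theorem mem_frattini_of_psi_eq_zero (hodd : Odd p) (hG : IsPGroup p G) {g : G}
    (h : psi D hn g = 0) : g ∈ frattini G := by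
  rw [D.frattini_eq hodd hG hn, D.mem_preim, Coord.mem_planeP]
  have hne : NeZero (p ^ n) := ⟨pow_ne_zero _ hp.out.ne_zero⟩
  have key : ∀ s : R p n, rd hn s = 0 → s ∈ pR p n 1 := by
    intro s hs
    have h1 : (p : ZMod p) = 0 := by simp
    have h2 : ((s.val : ℕ) : ZMod p) = 0 := by
      rw [← hs, rd, ZMod.castHom_apply]
      simp [ZMod.natCast_val]
    rw [ZMod.natCast_eq_zero_iff] at h2
    obtain ⟨e, he⟩ := h2
    refine ⟨(e : R p n), ?_⟩
    have h3 : s = ((s.val : ℕ) : R p n) := by simp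
    rw [h3, he]
    push_cast
    ring
  have h1 := congrArg Prod.fst h
  have h2 := congrArg Prod.snd h
  exact ⟨key _ h1, key _ h2⟩

theorem psi_mem_powK (hodd : Odd p) (hG : IsPGroup p G) (j : ℕ) {g : G}
    (h : psi D hn g = 0) : g ∈ powK D hodd j :=
  frattini_le_powK D hodd hG j (mem_frattini_of_psi_eq_zero D hn hodd hG h)

include hn in
theorem c_pow_pred_mem_center (hodd : Odd p) (hG : IsPGroup p G) :
    D.c ^ p ^ (n - 1) ∈ center G := by
  rw [D.mem_center_iff]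
  have h1 : D.c ∈ frattini G := by
    have hle : commutator G ≤ frattini G := by
      rw [commutator_def, Subgroup.commutator_le]
      intro x _ y _
      exact ((Cfsg.Agent.Lib.PGroup.Basic.frattini_le_iff hG).mp le_rfl).2 x y
    exact hle (c_mem_commutator D)
  rw [D.frattini_eq hodd hG hn, D.mem_preim, Coord.mem_planeP] at h1
  obtain ⟨⟨s, hs⟩, ⟨s', hs'⟩⟩ := h1
  rw [D.φ_pow]
  obtain ⟨w, hw⟩ := t_prime_pow_form (A := R p n) hodd (D.χ_form D.c) (n - 1)
  rw [hw]
  have hpp : ((p : R p n)) ^ (n - 1) * (p : R p n) = 0 := by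
    rw [← pow_succ, show n - 1 + 1 = n by omega]
    exact Cfsg.Agent.Lib.PGroup.MetaForm.natCast_p_pow_eq_zero
  apply Prod.ext
  · show _ * (D.φ D.c).1 = 0
    rw [hs, pow_one]
    calc (p : R p n) ^ (n - 1) * (1 + (p : R p n) * w) * ((p : R p n) * s)
        = ((p : R p n) ^ (n - 1) * (p : R p n)) * ((1 + (p : R p n) * w) * s) := by ring
      _ = 0 := by rw [hpp, zero_mul]
  · show _ * (D.φ D.c).2 = 0
    rw [hs', pow_one]
    calc (p : R p n) ^ (n - 1) * (1 + (p : R p n) * w) * ((p : R p n) * s')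
        = ((p : R p n) ^ (n - 1) * (p : R p n)) * ((1 + (p : R p n) * w) * s') := by ring
      _ = 0 := by rw [hpp, zero_mul]

include D hn in
theorem main_aux {Γ : Type*} [Group Γ] [Finite Γ] (hodd : Odd p) (hG : IsPGroup p G)
    (ρ : Γ →* MulAut G) (hc : (Nat.card Γ).Coprime p) (hgen : commClosure ρ = ⊤) : False := by
  classical
  choose k hk hkp using fun b : Γ => exists_k D hn (ρ b)
  have hω : ∀ b, ((k b : ℕ) : ZMod p) ≠ 0 := fun b => by
    rw [Ne, ZMod.natCast_eq_zero_iff]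
    exact hkp b
  have E1 : ∀ b x y, dd (psi D hn (ρ b x)) (psi D hn (ρ b y)) =
      (k b : ZMod p) * dd (psi D hn x) (psi D hn y) := fun b x y => dd_aut D hn (ρ b) (hk b) x y
  set z₀ := D.c ^ p ^ (n - 1) with hz₀
  have hz₀ne : z₀ ≠ 1 := c_pow_pred_ne_one D hn
  have hz₀c : z₀ ∈ center G := c_pow_pred_mem_center D hn hodd hG
  have hρz : ∀ b, ρ b z₀ = z₀ ^ k b := fun b => by
    rw [hz₀, map_pow, hk, ← pow_mul, ← pow_mul, mul_comm]
  obtain ⟨w₀, hw₀⟩ := D.exists_pow_eq_of_mem_center hodd hz₀c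
  let P : ℕ → Prop := fun j => ∃ g : G, g ^ p ^ (n + j) = z₀
  have hP0 : P 0 := ⟨w₀, hw₀⟩
  have hPbig : ∃ j, ¬ P j := by
    obtain ⟨e, he⟩ := IsPGroup.iff_card.mp hG
    refine ⟨e, ?_⟩
    rintro ⟨g, hg⟩
    apply hz₀ne
    rw [← hg, add_comm, pow_add, pow_mul, ← he, pow_card_eq_one', one_pow]
  have hj₁ := Nat.find_spec hPbig
  have hj₁0 : Nat.find hPbig ≠ 0 := by
    intro h
    rw [h] at hj₁
    exact hj₁ hP0
  obtain ⟨j, hj⟩ := Nat.exists_eq_succ_of_ne_zero hj₁0
  have hPj : P j := by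
    by_contra hcon
    have := Nat.find_min' hPbig hcon
    omega
  have hnotP : ¬ P (j + 1) := by
    rw [hj] at hj₁
    exact hj₁
  obtain ⟨w, hw⟩ := hPj
  set K := powK D hodd j with hK
  set ψ' := psi D hn with hψ'
  have ψm : ∀ x y, ψ' (x * y) = ψ' x + ψ' y := psi_mul D hn
  have ψi : ∀ x, ψ' x⁻¹ = - ψ' x := psi_inv D hn
  have ψp : ∀ x (k : ℕ), ψ' (x ^ k) = (k : ZMod p) • ψ' x := psi_pow D hn
  have ψa : ψ' D.a = (1, 0) := psi_a D hn
  have ψb : ψ' D.b = (0, 1) := psi_b D hn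
  have hwK : w ∉ K := by
    rintro ⟨h, hh⟩
    exact hnotP ⟨h, by rw [← hh, hw]⟩
  have hK0 : ∀ g, ψ' g = 0 → g ∈ K := fun g h => psi_mem_powK D hn hodd hG j h
  have hKρ : ∀ b g, g ∈ K → ρ b g ∈ K := by
    rintro b g ⟨h, hh⟩
    exact ⟨ρ b h, by rw [← map_pow, ← map_pow, hh]⟩
  have hnotu : ∀ g ∈ K, ψ' g ≠ ψ' w := by
    intro g hg h
    apply hwK
    have h1 : g⁻¹ * w ∈ K := hK0 _ (by rw [ψm, ψi, h]; simp)
    have h2 := K.mul_mem hg h1
    simpa using h2
  have hρw : ∀ b, ∃ y ∈ K, ψ' (ρ b w) = (k b : ZMod p) • ψ' w + ψ' y := by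
    intro b
    refine ⟨ρ b w * (w ^ k b)⁻¹, ⟨1, ?_⟩, ?_⟩
    · rw [pow_add_hom D hodd, inv_pow, ← pow_mul, mul_comm, pow_mul, ← map_pow, hw, hρz]
      simp
    · rw [ψm, ψi, ψp]
      abel
  by_cases hW : ∀ y ∈ K, ψ' y = 0
  · -- case A
    have hu : ψ' w ≠ 0 := fun h => hwK (hK0 w h)
    have hf := additive_eq_zero ρ hgen (fun g => dd (ψ' w) (ψ' g))
      (fun x y => by rw [ψm, dd_add_right])
      (fun b g => by
        obtain ⟨l, hl, hwl⟩ := hρw b
        have h1 := E1 b w g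
        rw [hwl, hW l hl, add_zero, dd_smul_left] at h1
        exact mul_left_cancel₀ (hω b) h1)
    obtain ⟨e, he⟩ := exists_dd_ne_zero hu
    apply he
    -- `e` is the image of a group element
    have h1 : ψ' (D.a ^ e.1.val * D.b ^ e.2.val) = e := by
      rw [ψm, ψp, ψp, ψa, ψb]
      ext <;> simp
    rw [← h1]
    exact hf _
  · -- case B
    push Not at hW
    obtain ⟨y, hyK, hv⟩ := hW
    have hsm : ∀ g ∈ K, ∀ α : ZMod p, ∃ g' ∈ K, ψ' g' = α • ψ' g := by
      intro g hg α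
      exact ⟨g ^ α.val, K.pow_mem hg _, by rw [ψp]; simp⟩
    have hspan : ∀ y₁ ∈ K, ∀ y₂ ∈ K, dd (ψ' y₁) (ψ' y₂) = 0 := by
      intro y₁ h₁ y₂ h₂
      by_contra hne
      obtain ⟨g₁, hg₁, he₁⟩ := hsm y₁ h₁ ((dd (ψ' w) (ψ' y₂)) / dd (ψ' y₁) (ψ' y₂))
      obtain ⟨g₂, hg₂, he₂⟩ := hsm y₂ h₂ ((dd (ψ' y₁) (ψ' w)) / dd (ψ' y₁) (ψ' y₂))
      apply hnotu _ (K.mul_mem hg₁ hg₂)
      rw [ψm, he₁, he₂, div_eq_inv_mul, div_eq_inv_mul]
      have h3 := dd_cramer (ψ' y₁) (ψ' y₂) (ψ' w)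
      have h4 := congrArg (fun v => (dd (ψ' y₁) (ψ' y₂))⁻¹ • v) h3
      simp only [smul_smul, smul_add] at h4
      rw [inv_mul_cancel₀ hne, one_smul] at h4
      exact h4.symm
    have huv : dd (ψ' w) (ψ' y) ≠ 0 := by
      intro h0
      obtain ⟨e, he⟩ := exists_dd_ne_zero hv
      obtain ⟨g₁, hg₁, he₁⟩ := hsm y hyK ((dd (ψ' w) e) / dd (ψ' y) e)
      apply hnotu _ hg₁
      rw [he₁, div_eq_inv_mul]
      have h3 := dd_cramer (ψ' y) e (ψ' w)
      rw [dd_comm (ψ' y) (ψ' w), h0, neg_zero, zero_smul, add_zero] at h3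
      have h4 := congrArg (fun v => (dd (ψ' y) e)⁻¹ • v) h3
      simp only [smul_smul] at h4
      rw [inv_mul_cancel₀ he, one_smul] at h4
      exact h4.symm
    have hfix : ∀ b, ψ' (ρ b y) = ψ' y := by
      intro b
      obtain ⟨l, hl, hwl⟩ := hρw b
      have h1 := E1 b w y
      rw [hwl, dd_add_left, dd_smul_left, hspan l hl _ (hKρ b y hyK), add_zero] at h1
      have h2 := mul_left_cancel₀ (hω b) h1
      have h3 : dd (ψ' w) (ψ' (ρ b y) - ψ' y) = 0 := by rw [dd_sub_right, h2, sub_self]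
      have h4 : dd (ψ' y) (ψ' (ρ b y) - ψ' y) = 0 := by
        rw [dd_sub_right, hspan y hyK _ (hKρ b y hyK), dd_self, sub_self]
      have h5 := dd_cramer (ψ' w) (ψ' y) (ψ' (ρ b y) - ψ' y)
      rw [h3, dd_comm (ψ' (ρ b y) - ψ' y) (ψ' y), h4, neg_zero, zero_smul, zero_smul, add_zero] at h5
      have h6 := (smul_eq_zero.mp h5).resolve_left huv
      exact sub_eq_zero.mp h6
    haveI : Fintype Γ := Fintype.ofFinite Γ
    have hΘ := additive_eq_zero ρ hgen (fun g => ∑ b : Γ, ψ' (ρ b g))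
      (fun x x' => by
        simp only [map_mul]
        rw [← Finset.sum_add_distrib]
        exact Finset.sum_congr rfl (fun b _ => by rw [ψm]))
      (fun c g => by
        refine Fintype.sum_equiv (Equiv.mulRight c) _ _ (fun b => ?_)
        simp [map_mul])
      y
    simp only [hfix] at hΘ
    rw [Finset.sum_const, Finset.card_univ, ← Nat.card_eq_fintype_card] at hΘ
    have h7 : ((Nat.card Γ : ℕ) : ZMod p) ≠ 0 := by
      rw [Ne, ZMod.natCast_eq_zero_iff]
      intro hd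
      have := Nat.Coprime.coprime_dvd_left hd hc
      exact hp.out.one_lt.ne' (by simpa using this)
    rw [← Nat.cast_smul_eq_nsmul (ZMod p)] at hΘ
    exact hv ((smul_eq_zero.mp hΘ).resolve_left h7)

end reduce

/-- **Coprime action on metacyclic groups**: for odd `p`, a metacyclic `p`-group `G` with a
coprime action with `[G, Γ] = G` is abelian. -/
theorem comm_of_commClosure_eq_top {G Γ : Type*} [Group G] [Finite G] [Group Γ] [Finite Γ] {p : ℕ}
    [hp : Fact p.Prime] (hodd : Odd p) (hG : IsPGroup p G) (hmc : Cfsg.IsMetacyclic G)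
    (ρ : Γ →* MulAut G) (hc : (Nat.card Γ).Coprime p) (hgen : commClosure ρ = ⊤) :
    ∀ x y : G, x * y = y * x := by
  by_contra hnc
  have hna : ¬ IsMulCommutative G := fun h => hnc (fun x y => h.is_comm.comm x y)
  obtain ⟨n, ⟨D⟩⟩ := Cfsg.Agent.Lib.PGroup.MetaBuild.exists_coord hodd hG hmc
  exact main_aux D (D.n_ne_zero_of_not_comm hna) hodd hG ρ hc hgen

end Cfsg.Agent.Lib.OddOrder.MetaAct

namespace Cfsg.Agent.Lib.OddOrder.MetaAct

/-- Subgroups of metacyclic groups are metacyclic. -/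
theorem isMetacyclic_of_injective {H K : Type*} [Group H] [Group K] (f : H →* K)
    (hf : Function.Injective f) (hK : Cfsg.IsMetacyclic K) : Cfsg.IsMetacyclic H := by
  obtain ⟨N, hN, hc, hq⟩ := hK
  let g : H →* K ⧸ N := (QuotientGroup.mk' N).comp f
  refine ⟨g.ker, inferInstance, ?_, ?_⟩
  · let e : g.ker →* N := (f.comp g.ker.subtype).codRestrict N (fun x => by
      have h := x.2
      rw [MonoidHom.mem_ker] at h
      simpa [g, QuotientGroup.eq_one_iff] using h)
    refine isCyclic_of_injective e ?_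
    intro x y hxy
    have h1 : f x = f y := congrArg Subtype.val hxy
    exact Subtype.ext (hf h1)
  · exact isCyclic_of_injective (QuotientGroup.kerLift g) (QuotientGroup.kerLift_injective g)

/-- In a metacyclic `p`-group (`p` odd), a noncyclic subgroup contains all elements of order `p`. -/
theorem mem_of_pow_eq_one_of_not_isCyclic {G : Type*} [Group G] [Finite G] {p : ℕ} [hp : Fact p.Prime]
    (hodd : Odd p) (R S : Subgroup G) (hSR : S ≤ R) (hR : IsPGroup p R) (hRm : Cfsg.IsMetacyclic R)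
    (hS : ¬ IsCyclic S) {y : G} (hy : y ∈ R) (hyp : y ^ p = 1) : y ∈ S := by
  have hi : Function.Injective (Subgroup.inclusion hSR) := Subgroup.inclusion_injective hSR
  have hSp : IsPGroup p S := hR.of_injective _ hi
  have hSm : Cfsg.IsMetacyclic S := isMetacyclic_of_injective _ hi hRm
  have hRnc : ¬ IsCyclic R := fun h => hS (isCyclic_of_injective _ hi)
  obtain ⟨n, ⟨D⟩⟩ := Cfsg.Agent.Lib.PGroup.MetaBuild.exists_coord hodd hR hRm
  obtain ⟨m, ⟨D'⟩⟩ := Cfsg.Agent.Lib.PGroup.MetaBuild.exists_coord hodd hSp hSm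
  obtain ⟨K, hK, hKc⟩ := D.exists_omega hodd hR hRnc
  obtain ⟨K', hK', hKc'⟩ := D'.exists_omega hodd hSp hS
  have hle : K'.map (Subgroup.inclusion hSR) ≤ K := by
    rintro _ ⟨x, hx, rfl⟩
    rw [hK, ← map_pow, (hK' x).mp hx, map_one]
  have hcard : Nat.card (K'.map (Subgroup.inclusion hSR)) = Nat.card K := by
    rw [hKc, ← hKc']
    exact Nat.card_congr (Subgroup.equivMapOfInjective K' _ hi).symm.toEquiv
  have heq : K'.map (Subgroup.inclusion hSR) = K :=
    Subgroup.eq_of_le_of_card_ge hle hcard.ge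
  have hyK : (⟨y, hy⟩ : R) ∈ K := (hK _).mpr (Subtype.ext hyp)
  rw [← heq] at hyK
  obtain ⟨x, -, hx⟩ := hyK
  have h2 : (x : G) = y := congrArg Subtype.val hx
  rw [← h2]
  exact x.2

/-- A nontrivial `p`-subgroup has an element of order `p`. -/
theorem exists_orderOf_eq {G : Type*} [Group G] [Finite G] {p : ℕ} [hp : Fact p.Prime]
    (S : Subgroup G) (hS : IsPGroup p S) (hne : S ≠ ⊥) : ∃ y ∈ S, y ^ p = 1 ∧ y ≠ 1 := by
  have hd : p ∣ Nat.card S := by
    rcases hS.card_eq_or_dvd with h | h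
    · exact absurd (Subgroup.eq_bot_of_card_eq S h) hne
    · exact h
  obtain ⟨x, hx⟩ := exists_prime_orderOf_dvd_card' p hd
  refine ⟨x.1, x.2, ?_, ?_⟩
  · have : x ^ p = 1 := by rw [← hx]; exact pow_orderOf_eq_one x
    exact congrArg Subtype.val this
  · intro h
    have : x = 1 := Subtype.ext h
    rw [this, orderOf_one] at hx
    exact hp.out.one_lt.ne hx

end Cfsg.Agent.Lib.OddOrder.MetaAct
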