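import Mathlib
import Cfsg.Prelude.Def_OddOrder
import Cfsg.Prelude.Def_LieExceptional
import Cfsg.Prelude.Def_CaseTheorems
import Cfsg.Agent.Lib.Basic.PCore
import Cfsg.Agent.Lib.Nilpotent.Elements
import Cfsg.Agent.Lib.Nilpotent.Parts
import Cfsg.Agent.Lib.Nilpotent.Fitting
import Cfsg.Agent.Lib.Nilpotent.CNFrob
import Cfsg.Agent.Lib.Coprime.InvHall
import Cfsg.Agent.S0065

/-!
# The odd CN theorem reduces to minimal simple groups

A group of odd order all of whose element centralizers are nilpotent is solvable as soon as no minimal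
simple group of odd order has this property.
-/

set_option autoImplicit false
set_option linter.style.haveILetI false

namespace Cfsg.Agent.Lib.OddOrder.CNReduce

open Cfsg Cfsg.Agent.Lib.Basic.PCore Cfsg.Agent.Lib.Nilpotent.Parts Cfsg.Agent.Lib.Nilpotent.Elements

universe u

section basics

variable {G : Type u} [Group G]

/-- Subgroups of CN-groups are CN-groups. -/
theorem isCN_subgroup (hCN : IsCNGroup G) (H : Subgroup G) : IsCNGroup H := by
  intro h hh
  have h1 : (h : G) ≠ 1 := fun e => hh (Subtype.ext e)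
  haveI := hCN h h1
  let f : ↥(Subgroup.centralizer ({h} : Set H)) →* ↥(Subgroup.centralizer ({(h : G)} : Set G)) :=
    { toFun := fun x => ⟨(x : H), by
        rw [Subgroup.mem_centralizer_singleton_iff]
        have := Subgroup.mem_centralizer_singleton_iff.1 x.2
        exact congrArg Subtype.val this⟩
      map_one' := rfl
      map_mul' := fun _ _ => rfl }
  have hf : Function.Injective f := by
    intro a b hab
    have h2 := congrArg (fun y : ↥(Subgroup.centralizer ({(h : G)} : Set G)) => (y : G)) hab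
    exact Subtype.ext (Subtype.ext h2)
  exact Group.nilpotent_of_mulEquiv (MonoidHom.ofInjective hf).symm

end basics

section main

variable {G : Type u} [Group G] [Finite G]

/-- Elements of coprime orders in a nilpotent subgroup commute. -/
theorem commute_in_nilpotent {N : Subgroup G} (hN : Group.IsNilpotent N) {x y : G} (hx : x ∈ N) (hy : y ∈ N)
    (h : (orderOf x).Coprime (orderOf y)) : x * y = y * x := by
  haveI := hN
  have h1 : (orderOf (⟨x, hx⟩ : N)).Coprime (orderOf (⟨y, hy⟩ : N)) := by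
    rw [Subgroup.orderOf_mk, Subgroup.orderOf_mk]
    exact h
  have := commute_of_coprime_orderOf h1
  exact congrArg Subtype.val this.eq

/-- A `p`-element and a `p'`-element commuting with `b ≠ 1` commute in a CN-group. -/
theorem commute_of_centralize (hCN : IsCNGroup G) {b x y : G} (hb : b ≠ 1) (hx : x * b = b * x) (hy : y * b = b * y)
    (h : (orderOf x).Coprime (orderOf y)) : x * y = y * x := by
  refine commute_in_nilpotent (hCN b hb) ?_ ?_ h
  · exact Subgroup.mem_centralizer_singleton_iff.2 hx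
  · exact Subgroup.mem_centralizer_singleton_iff.2 hy

theorem coprime_of_pow {p : ℕ} (hp : p.Prime) {x w : G} (hx : (orderOf x).Coprime p) {k : ℕ} (hw : w ^ p ^ k = 1) :
    (orderOf x).Coprime (orderOf w) :=
  Nat.Coprime.coprime_dvd_right (orderOf_dvd_of_pow_eq_one hw) (Nat.Coprime.pow_right k hx)

/-- The centralizer of a normal subgroup is contained in the nilpotent centralizer of a point. -/
theorem isNilpotent_centralizer (hCN : IsCNGroup G) {A : Subgroup G} (hA : A ≠ ⊥) :
    Group.IsNilpotent (Subgroup.centralizer (A : Set G)) := by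
  obtain ⟨⟨a, ha⟩, ha1⟩ := Subgroup.ne_bot_iff_exists_ne_one.1 hA
  have ha1' : a ≠ 1 := fun h => ha1 (Subtype.ext h)
  exact Cfsg.Agent.Lib.Nilpotent.Fitting.isNilpotent_of_le (K := Subgroup.centralizer ({a} : Set G))
    (Subgroup.centralizer_le (by simpa using ha)) (hCN a ha1')

end main

section cyclic

variable {G : Type u} [Group G] [Finite G]

theorem coprime_of_pow_pow {p r : ℕ} (hp : p.Prime) (hr : r.Prime) (hpr : p ≠ r) {x y : G} {i j : ℕ}
    (hx : x ^ r ^ i = 1) (hy : y ^ p ^ j = 1) : (orderOf x).Coprime (orderOf y) := by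
  refine Nat.Coprime.coprime_dvd_left (orderOf_dvd_of_pow_eq_one hx)
    (Nat.Coprime.coprime_dvd_right (orderOf_dvd_of_pow_eq_one hy) ?_)
  exact Nat.Coprime.pow _ _ ((Nat.coprime_primes hr hp).2 hpr.symm)

/-- The image in `G/F` of a Sylow `r`-subgroup is cyclic, for `r ≠ p`, as soon as `F` contains the centralizer
of a nontrivial abelian normal `p`-subgroup. -/
theorem isCyclic_map_sylow (hCN : IsCNGroup G) (hodd : Odd (Nat.card G)) {p r : ℕ} [hp : Fact p.Prime]
    [hr : Fact r.Prime] (hpr : p ≠ r) {A : Subgroup G} [hAn : A.Normal] (hA1 : A ≠ ⊥)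
    (hAc : ∀ a ∈ A, ∀ b ∈ A, a * b = b * a) (hAp : IsPGroup p A) (F : Subgroup G) [hFn : F.Normal]
    (hF : Subgroup.centralizer (A : Set G) ≤ F) (R : Sylow r G) :
    IsCyclic ((R : Subgroup G).map (QuotientGroup.mk' F)) := by
  classical
  let c : G →* MulAut A := MulAut.conjNormal
  have hcapp : ∀ (x : G) (b : A), ((c x b : A) : G) = x * b * x⁻¹ := fun x b => by
    simp [c, MulAut.conjNormal_apply]
  let Γ := A ⋊[MonoidHom.id (MulAut A)] MulAut A
  haveI : Finite (MulAut A) := Finite.of_injective (fun f : MulAut A => (f.toEquiv : Equiv A A))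
    (fun f g h => by
      ext x
      exact congrArg Subtype.val (congrFun (congrArg (fun e : Equiv A A => (e : A → A)) h) x))
  haveI : Finite Γ := Finite.of_equiv _ (SemidirectProduct.equivProd (φ := MonoidHom.id (MulAut A))).symm
  let φ : G →* Γ := (SemidirectProduct.inr).comp c
  let E : Subgroup Γ := (R : Subgroup G).map φ
  let V : Subgroup Γ := (SemidirectProduct.inl (φ := MonoidHom.id (MulAut A))).range
  have hφ1 : ∀ x : G, φ x = 1 → x ∈ Subgroup.centralizer (A : Set G) := by
    intro x hx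
    have h1 : c x = 1 := by
      apply SemidirectProduct.inr_injective (φ := MonoidHom.id (MulAut A))
      simpa [φ] using hx
    rw [Subgroup.mem_centralizer_iff]
    intro a ha
    have h2 := hcapp x ⟨a, ha⟩
    rw [h1] at h2
    simp only [MulAut.one_apply] at h2
    rw [eq_mul_inv_iff_mul_eq] at h2
    exact h2
  have hVc : IsMulCommutative V := by
    refine ⟨⟨?_⟩⟩
    rintro ⟨_, a, rfl⟩ ⟨_, b, rfl⟩
    apply Subtype.ext
    show (SemidirectProduct.inl a : Γ) * SemidirectProduct.inl b = SemidirectProduct.inl b * SemidirectProduct.inl a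
    rw [← map_mul, ← map_mul]
    congr 1
    exact Subtype.ext (hAc a a.2 b b.2)
  have hV1 : V ≠ ⊥ := by
    obtain ⟨⟨a, ha⟩, ha1⟩ := Subgroup.ne_bot_iff_exists_ne_one.1 hA1
    intro h
    have h1 : (SemidirectProduct.inl ⟨a, ha⟩ : Γ) ∈ V := ⟨_, rfl⟩
    rw [h, Subgroup.mem_bot] at h1
    apply ha1
    apply SemidirectProduct.inl_injective (φ := MonoidHom.id (MulAut A))
    rw [h1, map_one]
  have hEV : E ≤ Subgroup.normalizer (V : Set Γ) := by
    have hVn : V.Normal := by
      show ((SemidirectProduct.inl (φ := MonoidHom.id (MulAut A))).range).Normal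
      rw [SemidirectProduct.range_inl_eq_ker_rightHom]
      exact MonoidHom.normal_ker _
    rw [show Subgroup.normalizer (V : Set Γ) = ⊤ from Subgroup.normalizer_eq_top_iff.2 hVn]
    exact le_top
  have hfpf : ∀ a ∈ E, a ≠ 1 → ∀ v ∈ V, a * v = v * a → v = 1 := by
    rintro _ ⟨x, hx, rfl⟩ ha1 _ ⟨b, rfl⟩ hcomm
    by_contra hv1
    have hb1 : b ≠ 1 := by
      rintro rfl
      exact hv1 (map_one _)
    have hb1' : (b : G) ≠ 1 := fun h => hb1 (Subtype.ext h)
    -- `x` fixes `b`
    have h1 : c x b = b := by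
      apply SemidirectProduct.inl_injective (φ := MonoidHom.id (MulAut A))
      have h2 := SemidirectProduct.inl_aut (φ := MonoidHom.id (MulAut A)) (c x) b
      simp only [MonoidHom.id_apply] at h2
      rw [h2]
      have h3 : (SemidirectProduct.inr (c x) : Γ) = φ x := rfl
      have h4 : (SemidirectProduct.inr (c x)⁻¹ : Γ) = (φ x)⁻¹ := by
        rw [← h3, map_inv]
      rw [h3, h4, mul_inv_eq_iff_eq_mul]
      exact hcomm
    have h2 : x * b = b * x := by
      have h3 := hcapp x b
      rw [h1, eq_mul_inv_iff_mul_eq] at h3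
      exact h3.symm
    apply ha1
    have hxr : ∃ i, x ^ r ^ i = 1 := by
      have := R.2 ⟨x, hx⟩
      obtain ⟨i, hi⟩ := this
      exact ⟨i, by simpa using congrArg Subtype.val hi⟩
    obtain ⟨i, hi⟩ := hxr
    have hxC : x ∈ Subgroup.centralizer (A : Set G) := by
      rw [Subgroup.mem_centralizer_iff]
      intro a ha
      obtain ⟨j, hj⟩ := hAp ⟨a, ha⟩
      have hj' : a ^ p ^ j = 1 := by simpa using congrArg Subtype.val hj
      have h5 := commute_of_centralize hCN hb1' h2 (hAc a ha b b.2)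
        (coprime_of_pow_pow hp.out hr.out hpr hi hj')
      exact h5.symm
    have h6 : c x = 1 := by
      ext y
      rw [hcapp]
      simp only [MulAut.one_apply]
      have := Subgroup.mem_centralizer_iff.1 hxC y y.2
      rw [← this]
      group
    show (SemidirectProduct.inr (c x) : Γ) = 1
    rw [h6, map_one]
  have hEodd : Odd (Nat.card E) := by
    have h1 : Nat.card E ∣ Nat.card R := Subgroup.card_map_dvd _ _
    have h2 : Nat.card R ∣ Nat.card G := Subgroup.card_subgroup_dvd_card _
    exact Odd.of_dvd_nat hodd (h1.trans h2)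
  haveI hZ : IsZGroup E := Cfsg.Agent.Lib.Nilpotent.CNFrob.isZGroup_of_odd hV1 hEV hfpf hEodd
  have hEp : IsPGroup r E := R.2.map φ
  have hEtop : IsPGroup r (⊤ : Subgroup E) := hEp.to_subgroup _
  haveI hcycT : IsCyclic (⊤ : Subgroup E) := hEtop.isCyclic_of_isZGroup
  haveI hcyc : IsCyclic E := isCyclic_of_surjective _ (Subgroup.topEquiv (G := E)).surjective
  obtain ⟨⟨e, he⟩, hgen⟩ := IsCyclic.exists_generator (α := E)
  obtain ⟨ρ, hρ, rfl⟩ := he
  refine ⟨⟨⟨QuotientGroup.mk' F ρ, ρ, hρ, rfl⟩, ?_⟩⟩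
  rintro ⟨_, x, hx, rfl⟩
  obtain ⟨k, hk⟩ := Subgroup.mem_zpowers_iff.1 (hgen ⟨φ x, x, hx, rfl⟩)
  refine Subgroup.mem_zpowers_iff.2 ⟨k, ?_⟩
  apply Subtype.ext
  have hk' : φ ρ ^ k = φ x := by simpa using congrArg Subtype.val hk
  have h1 : φ (x⁻¹ * ρ ^ k) = 1 := by
    rw [map_mul, map_inv, map_zpow, hk', inv_mul_cancel]
  have h2 := hF (hφ1 _ h1)
  have h3 : QuotientGroup.mk' F (x⁻¹ * ρ ^ k) = 1 := (QuotientGroup.eq_one_iff _).2 h2
  rw [map_mul, map_inv, map_zpow, inv_mul_eq_one] at h3
  simpa using h3.symm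

end cyclic

section corecenter

variable {G : Type u} [Group G] [Finite G]

/-- The centre of the `p`-core. -/
def zCore (p : ℕ) (G : Type u) [Group G] : Subgroup G :=
  (Subgroup.center (pCore p G)).map (pCore p G).subtype

instance zCore_normal (p : ℕ) : (zCore p G).Normal :=
  map_subtype_normal_of_characteristic _

theorem zCore_isPGroup (p : ℕ) [Fact p.Prime] : IsPGroup p (zCore p G) :=
  ((pCore_isPGroup p).to_subgroup _).map _

theorem zCore_ne_bot {p : ℕ} [Fact p.Prime] (h : pCore p G ≠ ⊥) : zCore p G ≠ ⊥ := by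
  haveI : Nontrivial (pCore p G) := (Subgroup.nontrivial_iff_ne_bot _).2 h
  haveI : Nontrivial (Subgroup.center (pCore p G)) := (pCore_isPGroup p).center_nontrivial
  obtain ⟨⟨a, ha⟩, ha1⟩ := exists_ne (1 : Subgroup.center (pCore p G))
  intro hb
  have h1 : (a : G) ∈ zCore p G := ⟨a, ha, rfl⟩
  rw [hb, Subgroup.mem_bot] at h1
  exact ha1 (Subtype.ext (Subtype.ext h1))

theorem zCore_comm (p : ℕ) : ∀ a ∈ zCore p G, ∀ b ∈ pCore p G, a * b = b * a := by
  rintro _ ⟨a, ha, rfl⟩ b hb
  have := Subgroup.mem_center_iff.1 ha ⟨b, hb⟩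
  exact (congrArg Subtype.val this).symm

theorem zCore_abelian (p : ℕ) : ∀ a ∈ zCore p G, ∀ b ∈ zCore p G, a * b = b * a := by
  intro a ha b hb
  obtain ⟨b', hb', rfl⟩ := hb
  exact zCore_comm p a ha _ b'.2

theorem centralizer_zCore_normal (p : ℕ) : (Subgroup.centralizer (zCore p G : Set G)).Normal :=
  Subgroup.normal_centralizer

end corecenter

section twoprimes

variable {G : Type u} [Group G] [Finite G]

/-- Two primes dividing the order of the Fitting subgroup: `G/F(G)` has cyclic Sylow subgroups. -/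
theorem solvable_of_two_primes (hCN : IsCNGroup G) (hodd : Odd (Nat.card G)) {p q : ℕ} [hp : Fact p.Prime]
    [hq : Fact q.Prime] (hpq : p ≠ q) (h1 : pCore p G ≠ ⊥) (h2 : pCore q G ≠ ⊥) : Group.IsSolvable G := by
  classical
  set F := fittingSubgroup G with hF
  have hFnil : Group.IsNilpotent F := fittingSubgroup_isNilpotent
  have hle : ∀ {ℓ : ℕ} [Fact ℓ.Prime], pCore ℓ G ≠ ⊥ →
      Subgroup.centralizer (zCore ℓ G : Set G) ≤ F := by
    intro ℓ _ h
    exact le_fittingSubgroup Subgroup.normal_centralizer (isNilpotent_centralizer hCN (zCore_ne_bot h))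
  haveI hZ : IsZGroup (G ⧸ F) := by
    refine ⟨fun ℓ hℓ Q => ?_⟩
    haveI : Fact ℓ.Prime := ⟨hℓ⟩
    obtain ⟨R, rfl⟩ := Sylow.mapSurjective_surjective (QuotientGroup.mk'_surjective F) ℓ Q
    rw [show ((Sylow.mapSurjective (QuotientGroup.mk'_surjective F) R : Sylow ℓ (G ⧸ F)) : Subgroup (G ⧸ F)) =
      (R : Subgroup G).map (QuotientGroup.mk' F) from Sylow.coe_mapSurjective _ _]
    by_cases hℓp : p = ℓ
    · have hqℓ : q ≠ ℓ := fun h => hpq (hℓp.trans h.symm)
      exact isCyclic_map_sylow hCN hodd hqℓ (zCore_ne_bot h2) (zCore_abelian q) (zCore_isPGroup q) F (hle h2) R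
    · exact isCyclic_map_sylow hCN hodd hℓp (zCore_ne_bot h1) (zCore_abelian p) (zCore_isPGroup p) F (hle h1) R
  haveI : Group.IsSolvable F := by
    haveI := hFnil
    infer_instance
  haveI : Group.IsSolvable (G ⧸ F) := inferInstance
  exact Group.isSolvable_of_ker_le_range F.subtype (QuotientGroup.mk' F) (by
    rw [QuotientGroup.ker_mk']
    simp)

end twoprimes

section onlyprime

variable {G : Type u} [Group G] [Finite G]

variable {p : ℕ} [hp : Fact p.Prime]

/-- With a single prime in the Fitting subgroup, `p'`-elements act fixed point freely on the `p`-core. -/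
theorem no_commuting (hCN : IsCNGroup G) (h1 : pCore p G ≠ ⊥) (hq : ∀ q : ℕ, q.Prime → q ≠ p → pCore q G = ⊥)
    {x u : G} (hx : (orderOf x).Coprime p) (hx1 : x ≠ 1) (hu : u ∈ pCore p G) (hu1 : u ≠ 1) (hc : x * u = u * x) :
    False := by
  have hA1 : zCore p G ≠ ⊥ := zCore_ne_bot h1
  have hxC : x ∈ Subgroup.centralizer (zCore p G : Set G) := by
    rw [Subgroup.mem_centralizer_iff]
    intro a ha
    obtain ⟨j, hj⟩ := zCore_isPGroup (G := G) p ⟨a, ha⟩
    have hj' : a ^ p ^ j = 1 := by simpa using congrArg Subtype.val hj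
    have h5 := commute_of_centralize hCN hu1 hc (zCore_comm p a ha u hu)
      (Nat.Coprime.coprime_dvd_right (orderOf_dvd_of_pow_eq_one hj') (Nat.Coprime.pow_right j hx))
    exact h5.symm
  have hnil := isNilpotent_centralizer hCN hA1
  have hnorm : (Subgroup.centralizer (zCore p G : Set G)).Normal := Subgroup.normal_centralizer
  have hord1 : orderOf x ≠ 1 := by
    rwa [Ne, orderOf_eq_one_iff]
  set q := (orderOf x).minFac with hqdef
  have hqp : q.Prime := Nat.minFac_prime hord1
  have hqdvd : q ∣ orderOf x := Nat.minFac_dvd _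
  have hqne : q ≠ p := by
    intro h
    rw [h] at hqdvd
    have := Nat.Coprime.eq_one_of_dvd hx.symm hqdvd
    exact hp.out.one_lt.ne' this
  have hy : orderOf (x ^ (orderOf x / q)) = q := orderOf_pow_orderOf_div (orderOf_pos x).ne' hqdvd
  have hyC : x ^ (orderOf x / q) ∈ Subgroup.centralizer (zCore p G : Set G) := pow_mem hxC _
  have hym := mem_pCore_of_normal_nilpotent hnorm hnil hyC (p := q) (k := 1) hqp (by rw [hy, pow_one])
  rw [hq q hqp hqne, Subgroup.mem_bot] at hym
  rw [hym, orderOf_one] at hy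
  exact hqp.one_lt.ne hy

/-- Conjugation transitivity of the `p`-core on cosets of `p'`-elements. -/
theorem exists_core_conj (hCN : IsCNGroup G) (h1 : pCore p G ≠ ⊥) (hq : ∀ q : ℕ, q.Prime → q ≠ p → pCore q G = ⊥)
    {y d : G} (hy : (orderOf y).Coprime p) (hy1 : y ≠ 1) (h : d * y * d⁻¹ * y⁻¹ ∈ pCore p G) :
    ∃ o ∈ pCore p G, (o⁻¹ * d) * y = y * (o⁻¹ * d) := by
  classical
  set O := pCore p G with hO
  have hOn : O.Normal := inferInstance
  let f : O → O := fun o => ⟨o * y * (o : G)⁻¹ * y⁻¹, by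
    have h2 : y * (o : G)⁻¹ * y⁻¹ ∈ O := hOn.conj_mem _ (O.inv_mem o.2) y
    have h3 : (o : G) * y * (o : G)⁻¹ * y⁻¹ = o * (y * (o : G)⁻¹ * y⁻¹) := by group
    rw [h3]
    exact O.mul_mem o.2 h2⟩
  have hinj : Function.Injective f := by
    intro a b hab
    have h2 : (a : G) * y * (a : G)⁻¹ * y⁻¹ = b * y * (b : G)⁻¹ * y⁻¹ := congrArg Subtype.val hab
    have h3 : (a : G) * y * (a : G)⁻¹ = b * y * (b : G)⁻¹ := mul_right_cancel h2
    have h4 : y * ((a : G)⁻¹ * b) = ((a : G)⁻¹ * b) * y := by
      have h5 : (a : G)⁻¹ * ((a : G) * y * (a : G)⁻¹) * (b : G) = (a : G)⁻¹ * ((b : G) * y * (b : G)⁻¹) * (b : G) := by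
        rw [h3]
      have h6 : (a : G)⁻¹ * ((a : G) * y * (a : G)⁻¹) * (b : G) = y * ((a : G)⁻¹ * b) := by group
      have h7 : (a : G)⁻¹ * ((b : G) * y * (b : G)⁻¹) * (b : G) = ((a : G)⁻¹ * b) * y := by group
      rw [h6, h7] at h5
      exact h5
    by_contra hne
    have hne' : (a : G)⁻¹ * b ≠ 1 := by
      intro h8
      apply hne
      apply Subtype.ext
      rw [inv_mul_eq_one] at h8
      exact h8
    exact no_commuting hCN h1 hq hy hy1 (O.mul_mem (O.inv_mem a.2) b.2) hne' h4
  have hsurj : Function.Surjective f := Finite.injective_iff_surjective.1 hinj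
  obtain ⟨o, ho⟩ := hsurj ⟨_, h⟩
  refine ⟨o, o.2, ?_⟩
  have h2 : (o : G) * y * (o : G)⁻¹ * y⁻¹ = d * y * d⁻¹ * y⁻¹ := congrArg Subtype.val ho
  have h3 : (o : G) * y * (o : G)⁻¹ = d * y * d⁻¹ := mul_right_cancel h2
  have h4 : y = (o : G)⁻¹ * (d * y * d⁻¹) * o := by
    rw [← h3]
    group
  calc ((o : G)⁻¹ * d) * y = ((o : G)⁻¹ * (d * y * d⁻¹) * o) * ((o : G)⁻¹ * d) := by group
    _ = y * ((o : G)⁻¹ * d) := by rw [← h4]

/-- A `p`-element has a nontrivial fixed point on the nontrivial normal `p`-subgroup `O`. -/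
theorem exists_fixed_point (h1 : pCore p G ≠ ⊥) {v : G} {k : ℕ} (hv : v ^ p ^ k = 1) :
    ∃ w ∈ pCore p G, w ≠ 1 ∧ v * w = w * v := by
  classical
  set O := pCore p G with hO
  have hOn : O.Normal := inferInstance
  have hvp : IsPGroup p (Subgroup.zpowers v) := by
    apply IsPGroup.of_card (n := (orderOf v).factorization p)
    rw [Nat.card_zpowers]
    obtain ⟨j, _, hj⟩ := (Nat.dvd_prime_pow hp.out).1 (orderOf_dvd_of_pow_eq_one hv)
    rw [hj]
    simp [Nat.Prime.factorization_self hp.out]
  set U := O ⊔ Subgroup.zpowers v with hU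
  have hUp : IsPGroup p U := IsPGroup.to_sup_of_normal_left (pCore_isPGroup p) hvp
  haveI hUnil : Group.IsNilpotent U := hUp.isNilpotent
  have hOU : O ≤ U := le_sup_left
  have hvU : v ∈ U := (le_sup_right : Subgroup.zpowers v ≤ U) (Subgroup.mem_zpowers v)
  haveI hnorm : (O.subgroupOf U).Normal := Subgroup.normal_subgroupOf
  have hne : O.subgroupOf U ≠ ⊥ := by
    obtain ⟨⟨a, ha⟩, ha1⟩ := Subgroup.ne_bot_iff_exists_ne_one.1 h1
    intro h
    have h2 : (⟨a, hOU ha⟩ : U) ∈ O.subgroupOf U := Subgroup.mem_subgroupOf.2 ha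
    rw [h, Subgroup.mem_bot] at h2
    have h2' : a = 1 := congrArg Subtype.val h2
    exact ha1 (Subtype.ext h2')
  have h3 := Cfsg.Agent.S0065.result (G := U) (O.subgroupOf U) hne
  obtain ⟨⟨w, hw⟩, hw1⟩ := Subgroup.ne_bot_iff_exists_ne_one.1 h3
  have hw2 : w ∈ O.subgroupOf U := hw.1
  have hw3 : w ∈ Subgroup.center U := hw.2
  refine ⟨w, Subgroup.mem_subgroupOf.1 hw2, ?_, ?_⟩
  · intro h
    apply hw1
    apply Subtype.ext
    exact Subtype.ext h
  · have := Subgroup.mem_center_iff.1 hw3 ⟨v, hvU⟩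
    exact congrArg Subtype.val this

/-- The quotient by the `p`-core is again a CN-group. -/
theorem isCN_quotient (hCN : IsCNGroup G) (h1 : pCore p G ≠ ⊥) (hq : ∀ q : ℕ, q.Prime → q ≠ p → pCore q G = ⊥) :
    IsCNGroup (G ⧸ pCore p G) := by
  classical
  set O := pCore p G with hO
  have hOn : O.Normal := inferInstance
  intro gbar hgbar
  obtain ⟨g, rfl⟩ := QuotientGroup.mk_surjective gbar
  have hmod : ∀ a b : G, ((a : G ⧸ O) * (b : G ⧸ O) = (b : G ⧸ O) * (a : G ⧸ O)) → a * b * a⁻¹ * b⁻¹ ∈ O := by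
    intro a b hab
    have h2 : ((a * b * a⁻¹ * b⁻¹ : G) : G ⧸ O) = 1 := by
      simp only [QuotientGroup.mk_mul, QuotientGroup.mk_inv]
      rw [hab]
      group
    exact (QuotientGroup.eq_one_iff _).1 h2
  obtain ⟨a, b, hgab, haz, hbz, ⟨k, hak⟩, hbc⟩ := exists_parts g p
  by_cases hb1 : b = 1
  · -- `g` is a `p`-element
    subst hb1
    rw [mul_one] at hgab
    subst hgab
    have hP : IsPGroup p (Subgroup.centralizer ({(g : G ⧸ O)} : Set (G ⧸ O))) := by
      rintro ⟨dbar, hd⟩
      obtain ⟨d, rfl⟩ := QuotientGroup.mk_surjective dbar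
      have hcomm : (d : G ⧸ O) * (g : G ⧸ O) = (g : G ⧸ O) * (d : G ⧸ O) := by
        have := Subgroup.mem_centralizer_singleton_iff.1 hd
        exact this
      obtain ⟨d₁, x, hd₁x, hd₁z, hxz, ⟨m, hm⟩, hxc⟩ := exists_parts d p
      by_cases hx1 : x = 1
      · subst hx1
        rw [mul_one] at hd₁x
        subst hd₁x
        refine ⟨m, ?_⟩
        apply Subtype.ext
        simp only [SubmonoidClass.mk_pow, OneMemClass.coe_one]
        rw [← QuotientGroup.mk_pow, hm]
        rfl
      · exfalso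
        -- the `p'`-part of `d` commutes with `a` modulo `O`
        have hxcomm : (g : G ⧸ O) * (x : G ⧸ O) = (x : G ⧸ O) * (g : G ⧸ O) := by
          obtain ⟨i, rfl⟩ := Subgroup.mem_zpowers_iff.1 hxz
          rw [QuotientGroup.mk_zpow]
          exact ((Commute.zpow_right (show Commute (g : G ⧸ O) (d : G ⧸ O) from hcomm.symm) i))
        obtain ⟨o, ho, hoc⟩ := exists_core_conj hCN h1 hq hxc hx1 (hmod g x hxcomm)
        set c := o⁻¹ * g with hc
        -- the `p'`-index power of `c`
        obtain ⟨v, y, hcvy, hvz, hyz, ⟨n, hn⟩, hyc⟩ := exists_parts c p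
        have hcbar : (c : G ⧸ O) = (g : G ⧸ O) := by
          rw [hc, QuotientGroup.mk_mul, QuotientGroup.mk_inv, (QuotientGroup.eq_one_iff o).2 ho]
          simp
        have hv1 : v ≠ 1 := by
          rintro rfl
          rw [one_mul] at hcvy
          apply hgbar
          have h3 : (g : G ⧸ O) ^ orderOf y = 1 := by
            rw [← hcbar, hcvy, ← QuotientGroup.mk_pow, pow_orderOf_eq_one]
            rfl
          have h4 : (g : G ⧸ O) ^ p ^ k = 1 := by
            rw [← QuotientGroup.mk_pow, hak]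
            rfl
          have h5 : orderOf (g : G ⧸ O) ∣ Nat.gcd (orderOf y) (p ^ k) :=
            Nat.dvd_gcd (orderOf_dvd_of_pow_eq_one h3) (orderOf_dvd_of_pow_eq_one h4)
          rw [Nat.Coprime.pow_right k hyc] at h5
          exact orderOf_eq_one_iff.1 (Nat.dvd_one.1 h5)
        have hvx : v * x = x * v := by
          obtain ⟨i, rfl⟩ := Subgroup.mem_zpowers_iff.1 hvz
          exact ((Commute.zpow_left (show Commute c x from hoc) i))
        obtain ⟨w, hwO, hw1, hvw⟩ := exists_fixed_point (G := G) h1 hn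
        obtain ⟨j, hj⟩ := pCore_isPGroup (G := G) p ⟨w, hwO⟩
        have hj' : w ^ p ^ j = 1 := by simpa using congrArg Subtype.val hj
        have h6 := commute_of_centralize hCN hv1 (x := x) (y := w) hvx.symm hvw.symm
          (Nat.Coprime.coprime_dvd_right (orderOf_dvd_of_pow_eq_one hj') (Nat.Coprime.pow_right j hxc))
        exact no_commuting hCN h1 hq hxc hx1 hwO hw1 h6
    exact hP.isNilpotent
  · -- the `p'`-part of `g` is nontrivial
    have hle : Subgroup.centralizer ({(g : G ⧸ O)} : Set (G ⧸ O)) ≤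
        (Subgroup.centralizer ({b} : Set G)).map (QuotientGroup.mk' O) := by
      intro dbar hd
      obtain ⟨d, rfl⟩ := QuotientGroup.mk_surjective dbar
      have hcomm : (d : G ⧸ O) * (g : G ⧸ O) = (g : G ⧸ O) * (d : G ⧸ O) :=
        Subgroup.mem_centralizer_singleton_iff.1 hd
      have hbcomm : (d : G ⧸ O) * (b : G ⧸ O) = (b : G ⧸ O) * (d : G ⧸ O) := by
        obtain ⟨i, rfl⟩ := Subgroup.mem_zpowers_iff.1 hbz
        rw [QuotientGroup.mk_zpow]
        exact ((Commute.zpow_right (show Commute (d : G ⧸ O) (g : G ⧸ O) from hcomm) i))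
      obtain ⟨o, ho, hoc⟩ := exists_core_conj hCN h1 hq hbc hb1 (hmod d b hbcomm)
      refine ⟨o⁻¹ * d, Subgroup.mem_centralizer_singleton_iff.2 hoc, ?_⟩
      show (((o⁻¹ * d : G)) : G ⧸ O) = (d : G ⧸ O)
      rw [QuotientGroup.mk_mul, QuotientGroup.mk_inv, (QuotientGroup.eq_one_iff o).2 ho]
      simp
    exact Cfsg.Agent.Lib.Nilpotent.Fitting.isNilpotent_of_le hle
      (isNilpotent_map (hCN b hb1) (QuotientGroup.mk' O))

end onlyprime

section induction

/-- **Reduction of the odd CN theorem to minimal simple groups.** -/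
theorem solvable_of_no_minSimple
    (hsimple : ∀ (X : Type u) [Group X] [Finite X], IsMinSimpleOddOrder X → IsCNGroup X → False) :
    ∀ (n : ℕ) (G : Type u) [Group G] [Finite G], Nat.card G = n → Odd n → IsCNGroup G → Group.IsSolvable G := by
  intro n
  induction n using Nat.strong_induction_on with
  | _ n ih =>
    intro G _ _ hcard hodd hCN
    classical
    have hoddG : Odd (Nat.card G) := hcard ▸ hodd
    -- proper subgroups
    have hsub : ∀ H : Subgroup G, H ≠ ⊤ → Group.IsSolvable H := by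
      intro H hH
      have hlt : Nat.card H < n := by
        rw [← hcard]
        have h2 := Subgroup.card_mul_index H
        have h3 : H.index ≠ 1 := fun h => hH (Subgroup.index_eq_one.1 h)
        have h4 : H.index ≠ 0 := Subgroup.index_ne_zero_of_finite
        have h5 : 0 < Nat.card H := Nat.card_pos
        rw [← h2]
        have h6 : 2 ≤ H.index := by omega
        nlinarith
      exact ih _ hlt H rfl (Odd.of_dvd_nat hoddG (Subgroup.card_subgroup_dvd_card H)) (isCN_subgroup hCN H)
    by_cases hsimp : IsSimpleGroup G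
    · by_cases hcomm : IsMulCommutative G
      · exact Group.isSolvable_of_comm (fun a b => hcomm.is_comm.comm a b)
      · exact (hsimple G ⟨hoddG, hsimp, hcomm, hsub⟩ hCN).elim
    by_cases hnt : Nontrivial G
    swap
    · rw [not_nontrivial_iff_subsingleton] at hnt
      infer_instance
    -- a proper nontrivial normal subgroup
    obtain ⟨N, hNn, hN1, hN2⟩ : ∃ N : Subgroup G, N.Normal ∧ N ≠ ⊥ ∧ N ≠ ⊤ := by
      by_contra hno
      apply hsimp
      refine ⟨fun N hNn => ?_⟩
      by_contra h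
      push Not at h hno
      exact h.2 (hno N hNn h.1)
    haveI := hsub N hN2
    -- a nontrivial core
    obtain ⟨p, hpp, hpc⟩ : ∃ p : ℕ, p.Prime ∧ pCore p G ≠ ⊥ := by
      obtain ⟨r, M, hr, hM1, -, -, hMn, hMp⟩ := Cfsg.Agent.Lib.Coprime.InvHall.exists_min_invariant
        (A := ⊤) (G := N) (by
          rw [show Subgroup.normalizer (N : Set G) = ⊤ from Subgroup.normalizer_eq_top_iff.2 hNn]) (hsub N hN2) hN1
      refine ⟨r, hr, ?_⟩
      have hMnorm : M.Normal := Subgroup.normalizer_eq_top_iff.1 (top_le_iff.1 hMn)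
      intro h
      apply hM1
      have := le_pCore hMnorm hMp
      rw [h] at this
      exact le_bot_iff.1 this
    haveI : Fact p.Prime := ⟨hpp⟩
    by_cases hq : ∃ q : ℕ, q.Prime ∧ q ≠ p ∧ pCore q G ≠ ⊥
    · obtain ⟨q, hqp, hqne, hqc⟩ := hq
      haveI : Fact q.Prime := ⟨hqp⟩
      exact solvable_of_two_primes hCN hoddG hqne.symm hpc hqc
    · push Not at hq
      have hCNq := isCN_quotient hCN hpc hq
      have hlt : Nat.card (G ⧸ pCore p G) < n := by
        rw [← hcard]
        have h2 := Subgroup.card_mul_index (pCore p G)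
        have h3 : 1 < Nat.card (pCore p G) := by
          haveI : Nontrivial (pCore p G) := (Subgroup.nontrivial_iff_ne_bot _).2 hpc
          exact Finite.one_lt_card
        have h4 : Nat.card (G ⧸ pCore p G) = (pCore p G).index := rfl
        rw [h4, ← h2]
        have h5 : 0 < (pCore p G).index := Nat.pos_of_ne_zero Subgroup.index_ne_zero_of_finite
        nlinarith
      have hoddq : Odd (Nat.card (G ⧸ pCore p G)) :=
        Odd.of_dvd_nat hoddG (Subgroup.card_quotient_dvd_card _)
      haveI := ih _ hlt (G ⧸ pCore p G) rfl hoddq hCNq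
      haveI : Group.IsSolvable (pCore p G) := by
        haveI : Group.IsNilpotent (pCore p G) := (pCore_isPGroup p).isNilpotent
        infer_instance
      exact Group.isSolvable_of_ker_le_range (pCore p G).subtype (QuotientGroup.mk' (pCore p G)) (by
        rw [QuotientGroup.ker_mk']
        simp)

end induction

end Cfsg.Agent.Lib.OddOrder.CNReduce
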