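import Mathlib
import Cfsg.Agent.S1484
import Cfsg.Agent.Lib.Nilpotent.CNMinimal
import Cfsg.Agent.Lib.OddOrder.PF7Group

/-!
# No minimal simple CN-group of odd order, from coherence of the Frobenius families
-/

set_option autoImplicit false
set_option linter.style.haveILetI false

namespace Cfsg.Agent.Lib.OddOrder.CNSimple

open Cfsg Cfsg.Agent.Lib.Nilpotent.CNMinimal Cfsg.Agent.Lib.Nilpotent.CN
open Cfsg.Agent.Lib.OddOrder.PF7Group

universe u

variable {G : Type u} [Group G] [Fintype G]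

/-- Conjugacy of maximal subgroups. -/
def conjSetoid (G : Type u) [Group G] : Setoid {M : Subgroup G // IsCoatom M} where
  r M M' := ∃ g : G, M'.1 = M.1.map (MulAut.conj g).toMonoidHom
  iseqv := by
    refine ⟨fun M => ⟨1, ?_⟩, ?_, ?_⟩
    · ext x
      simp
    · rintro M M' ⟨g, hg⟩
      refine ⟨g⁻¹, ?_⟩
      rw [hg, Subgroup.map_map]
      ext x
      simp only [Subgroup.mem_map, MonoidHom.comp_apply]
      constructor
      · intro hx
        exact ⟨x, hx, by simp; group⟩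
      · rintro ⟨y, hy, rfl⟩
        have : (MulAut.conj g⁻¹).toMonoidHom ((MulAut.conj g).toMonoidHom y) = y := by simp; group
        rw [this]
        exact hy
    · rintro M M' M'' ⟨g, hg⟩ ⟨h, hh⟩
      refine ⟨h * g, ?_⟩
      rw [hh, hg, Subgroup.map_map]
      ext x
      simp only [Subgroup.mem_map, MonoidHom.comp_apply]
      constructor
      · rintro ⟨y, hy, rfl⟩
        refine ⟨y, hy, ?_⟩
        simp [mul_assoc]
      · rintro ⟨y, hy, rfl⟩
        refine ⟨y, hy, ?_⟩
        simp [mul_assoc]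

/-- Representatives of the conjugacy classes of maximal subgroups. -/
theorem exists_reps (G : Type u) [Group G] [Finite G] :
    ∃ (k : ℕ) (Mrep : Fin k → Subgroup G), (∀ i, IsCoatom (Mrep i)) ∧
      (∀ i j, i ≠ j → ∀ g : G, Mrep j ≠ (Mrep i).map (MulAut.conj g).toMonoidHom) ∧
      (∀ M : Subgroup G, IsCoatom M → ∃ i, ∃ g : G, M = (Mrep i).map (MulAut.conj g).toMonoidHom) := by
  classical
  let s := conjSetoid G
  let Q := Quotient s
  haveI : Finite Q := Quotient.finite _
  let e := Finite.equivFin Q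
  refine ⟨Nat.card Q, fun i => (e.symm i).out.1, fun i => (e.symm i).out.2, ?_, ?_⟩
  · intro i j hij g hg
    apply hij
    apply e.symm.injective
    have h : s.r (e.symm i).out (e.symm j).out := ⟨g, hg⟩
    have := Quotient.sound (s := s) h
    rwa [Quotient.out_eq, Quotient.out_eq] at this
  · intro M hM
    obtain ⟨i, hi⟩ := e.symm.surjective (Quotient.mk s ⟨M, hM⟩)
    refine ⟨i, ?_⟩
    have h : s.r (e.symm i).out ⟨M, hM⟩ := by
      apply Quotient.exact (s := s)
      rw [Quotient.out_eq, hi]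
    exact h

/-- A minimal simple CN-group of odd order does not exist, if the families of the maximal subgroups are coherent. -/
theorem no_minSimple (hG : IsMinSimpleOddOrder G) (hCN : IsCNGroup G)
    (hcoh : ∀ (H L W₁ : Subgroup G) [Fintype L], H ≤ L → W₁ ≤ L → H ≠ ⊥ → W₁ ≠ ⊥ → Group.IsNilpotent H →
      (∀ x ∈ L, ∀ h ∈ H, x * h * x⁻¹ ∈ H) → H ⊓ W₁ = ⊥ → H ⊔ W₁ = L →
      (∀ w ∈ W₁, w ≠ 1 → ∀ h ∈ H, w * h = h * w → h = 1) → IsTISubset (H : Set G) →
      Subgroup.normalizer (H : Set G) = L →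
      IsCoherent (Cfsg.inducedIrrAbove (H.subgroupOf L) ⊥) {1}ᶜ (fun α : L → ℂ => Cfsg.indFun L α)) : False := by
  classical
  obtain ⟨k, Mrep, hmax, hnc, hall⟩ := exists_reps G
  obtain ⟨hcop, -, hcover⟩ := Cfsg.Agent.S1484.result hG hCN k Mrep hmax hnc hall
  have hdata : ∀ i, ∃ E, FrobData (Mrep i) (Cfsg.fittingHallOf (Mrep i)) E :=
    fun i => exists_frobData hG hCN (hmax i)
  choose E hF using hdata
  have hnil : ∀ i, Group.IsNilpotent (Cfsg.fittingHallOf (Mrep i)) := fun i => (hF i).hKnil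
  have hmx : ∀ i, ∀ L : Subgroup G, Group.IsNilpotent L → Cfsg.fittingHallOf (Mrep i) ≤ L →
      L = Cfsg.fittingHallOf (Mrep i) := fun i => kernel_maxNil hG hCN (hmax i) (hF i)
  have hN : ∀ i, Subgroup.normalizer (Cfsg.fittingHallOf (Mrep i) : Set G) = Mrep i := by
    intro i
    have hle : Mrep i ≤ Subgroup.normalizer (Cfsg.fittingHallOf (Mrep i) : Set G) := (hF i).hnorm
    have h1 := maxNil_ne_bot hG (hmx i)
    have h2 := maxNil_ne_top hG (hnil i)
    have htop := normalizer_ne_top_of_ne hG h1 h2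
    apply le_antisymm _ hle
    by_contra hnot
    exact htop ((hmax i).2 _ (lt_of_le_of_ne hle (fun h => hnot (le_of_eq h.symm))))
  have hTI : ∀ i, IsTISubset (Cfsg.fittingHallOf (Mrep i) : Set G) := by
    intro i g hg x hx hgx
    have hne : (Cfsg.fittingHallOf (Mrep i)).map (MulAut.conj g).toMonoidHom ≠ Cfsg.fittingHallOf (Mrep i) := by
      intro h
      apply hg
      apply Cfsg.Agent.Lib.Coprime.Three.mem_normalizer_of_conj_mem
      intro u hu
      have : g * u * g⁻¹ ∈ (Cfsg.fittingHallOf (Mrep i)).map (MulAut.conj g).toMonoidHom := ⟨u, hu, rfl⟩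
      rw [h] at this
      exact this
    have hbot := maxNil_TI hG hCN (hnil i) (hmx i) g hne
    have h3 : g * x * g⁻¹ ∈ Cfsg.fittingHallOf (Mrep i) ⊓ (Cfsg.fittingHallOf (Mrep i)).map (MulAut.conj g).toMonoidHom :=
      ⟨hgx, x, hx, rfl⟩
    rw [hbot, Subgroup.mem_bot] at h3
    have h4 : x = g⁻¹ * (g * x * g⁻¹) * g := by group
    rw [h4, h3]
    simp
  -- a class of maximal subgroups exists
  haveI : Nonempty (Fin k) := by
    haveI := hG.2.1
    have hcoat : ∃ M : Subgroup G, IsCoatom M := by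
      have h1 : (⊥ : Subgroup G) ≠ ⊤ := bot_ne_top
      rcases eq_top_or_exists_le_coatom (⊥ : Subgroup G) with h | ⟨M, hM, -⟩
      · exact absurd h h1
      · exact ⟨M, hM⟩
    obtain ⟨M, hM⟩ := hcoat
    obtain ⟨i, -⟩ := hall M hM
    exact ⟨i⟩
  haveI : ∀ i, Fintype (Mrep i) := fun i => Fintype.ofFinite _
  refine no_partition_of_frob hG.1 Mrep (fun i => Cfsg.fittingHallOf (Mrep i)) ?_ (fun i => (hF i).hK1) ?_ ?_ hcop ?_ ?_ ?_
  · intro i
    refine lt_of_le_of_ne (hF i).hKM ?_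
    intro h
    apply (hF i).hE1
    have h2 := (hF i).hinf
    rw [h, inf_eq_right.2 (hF i).hEM] at h2
    exact h2
  · intro i x hx h hh
    exact (Subgroup.mem_normalizer_iff.1 ((hF i).hnorm hx) h).1 hh
  · rintro i h hh hh1 x ⟨hxM, hxC⟩
    exact (hF i).mem_of_commute hh hh1 hxM (Subgroup.mem_centralizer_singleton_iff.1 hxC)
  · exact fun i => ⟨hTI i, hN i⟩
  · intro g _
    obtain ⟨i, x, hx⟩ := hcover g
    exact ⟨i, x, hx⟩
  · intro i W₁ h1 h2 h3 h4 h5 h6
    exact hcoh _ (Mrep i) W₁ (hF i).hKM h1 (hF i).hK1 h2 h3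
      (fun x hx h hh => (Subgroup.mem_normalizer_iff.1 ((hF i).hnorm hx) h).1 hh) h4 h5 h6 (hTI i) (hN i)

end Cfsg.Agent.Lib.OddOrder.CNSimple
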